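import Cfsg.Agent.Lib.ToddCox.HCGO.OrbD
set_option autoImplicit false
set_option maxRecDepth 100000
namespace Cfsg.Agent.Lib.ToddCox.HCGO
open Cfsg.Agent.Lib.ToddCox.HCGT in
theorem lv0_0 : allBits (fun k => bif Nat.blt k 1344 then chkOrbPos Cfsg.Agent.Lib.ToddCox.HCGT.tab L 0 4 1344 2058 (fun q => orbR (Nat.add 0 q)) k else true) 11 0 = true := by decide +kernel
theorem fx0 : ∀ w ∈ L.drop 5, tabW Cfsg.Agent.Lib.ToddCox.HCGT.tab w 4 = 4 := by decide +kernel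
theorem lv1_0 : allBits (fun k => bif Nat.blt k 16 then chkOrbPos Cfsg.Agent.Lib.ToddCox.HCGT.tab L 5 11 16 2058 (fun q => orbR (Nat.add 1344 q)) k else true) 11 0 = true := by decide +kernel
theorem fx1 : ∀ w ∈ L.drop 9, tabW Cfsg.Agent.Lib.ToddCox.HCGT.tab w 11 = 11 := by decide +kernel
end Cfsg.Agent.Lib.ToddCox.HCGO
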